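import Cfsg.Agent.H657.FourFi.Fi22
import Cfsg.Agent.Schreier.FiTwentyThree
import Cfsg.Agent.Fischer.Fi23Simple

/-!
# `Fi23`: the elements of order seven
-/

set_option autoImplicit false
set_option linter.constructorNameAsVariable false
set_option maxRecDepth 10000

open Cfsg

namespace Cfsg.Agent.H657.FourFi

open Cfsg.Agent.Blocks.LocalRing
open Cfsg.Agent.Blocks
open Cfsg.Agent.Characters.Core
open Cfsg.Agent.H652.Four
open Subgroup
open Cfsg.Agent.Schreier.Step Cfsg.Agent.Schreier.FiCommon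

universe u v

/-- the order of the centraliser -/
theorem card_cq {G : Type u} [Group G] {z : G} {Q : Type v} [Group Q]
    {f : centralizer ({z} : Set G) →* Q} (h : CQ _ z f) :
    Nat.card (centralizer ({z} : Set G)) = orderOf z * Nat.card Q := by
  rw [← f.ker.card_mul_index, Subgroup.index_ker, MonoidHom.range_eq_top.2 h.surj, Subgroup.card_top]
  congr 1
  rw [← Nat.card_zpowers]
  have e : f.ker.map (centralizer ({z} : Set G)).subtype = zpowers z := by
    ext y
    constructor
    · rintro ⟨x, hx, rfl⟩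
      exact (h.ker x).1 hx
    · intro hy
      have hy' : y ∈ centralizer ({z} : Set G) :=
        (zpowers_le.2 h.mem : zpowers z ≤ centralizer ({z} : Set G)) hy
      exact ⟨⟨y, hy'⟩, (h.ker _).2 hy, rfl⟩
  rw [← e]
  exact Nat.card_congr (f.ker.equivMapOfInjective _ (subtype_injective _)).toEquiv

theorem card_fi22 : Nat.card Spor.Fi22 = 64561751654400 := by
  rw [← Cfsg.Agent.Fischer.Order22.card_G]
  exact Nat.card_congr Cfsg.Agent.SporRec.Fi22Iso.ψe.toEquiv

/-- `Dv` one step up -/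
theorem dv_up {G : Type u} [Group G] [Finite G] {z : G} {r k e l m : ℕ}
    (hsev : Sev r G) (hex : ∃ x : centralizer ({z} : Set G), orderOf x = r)
    (hk : Dv r k (centralizer ({z} : Set G)))
    (he : 2 ^ e ∣ (centralizer ({z} : Set G)).index)
    (hl : (centralizer ({z} : Set G)).index < 2 ^ (l + 1))
    (hm : m + l ≤ k + e) : Dv r m G := by
  intro y hy
  obtain ⟨x, hx⟩ := hex
  have hxo : orderOf (x : G) = r := by rw [orderOf_coe, hx]
  obtain ⟨c, hc⟩ := isConj_iff.1 (hsev.conj _ _ hxo hy)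
  have hidx : (centralizer ({y} : Set G)).index = (centralizer ({(x : G)} : Set G)).index := by
    have h1 := index_centralizer_equiv (MulAut.conj c) (x : G)
    rw [MulAut.conj_apply, hc] at h1
    exact h1.symm
  rw [hidx]
  exact dvd_index_up (t := z) x.2 (hk x hx) he (lt_of_le_of_lt (relIndex_le_index _ _) hl) hm

theorem fi23_both : Sev 7 Spor.Fi23 ∧ Dv 7 2 Spor.Fi23 := by
  have hcG := Cfsg.Agent.Fischer.Fi23Simple.card_Fi23
  have hfin : Finite Spor.Fi23 := Nat.finite_of_card_ne_zero (by rw [hcG]; norm_num)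
  have hz : Cfsg.Agent.Fischer.Fi23Z.z0 * Cfsg.Agent.Fischer.Fi23Z.z0 = 1 :=
    congrArg Subtype.val R08.FiTwentyThree.zz
  have hz1 : Cfsg.Agent.Fischer.Fi23Z.z0 ≠ 1 := by
    intro h
    apply Cfsg.Agent.Fischer.Fi23Class.z0_ncomm
    rw [h, one_mul, mul_one]
  have h7 : Nat.Prime 7 := by norm_num
  have hcq := Cfsg.Agent.Schreier.FiTwentyThree.cq
  have hsev := sev_cent hz hcq h7 (by norm_num) sev_fi22
  have hup := sev_up hz h7 (by rw [hcG]; norm_num) hsev
  refine ⟨hup, ?_⟩
  have hcard := card_cq hcq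
  rw [card_fi22, orderOf_eq_prime (by rw [pow_two, hz]) hz1] at hcard
  have hidx := (centralizer ({Cfsg.Agent.Fischer.Fi23Z.z0} : Set Spor.Fi23)).card_mul_index
  rw [hcard, hcG] at hidx
  have hidx' : (centralizer ({Cfsg.Agent.Fischer.Fi23Z.z0} : Set Spor.Fi23)).index = 31671 := by omega
  refine dv_up (k := 16) (e := 0) (l := 14) hup hsev.ex ?_ (by norm_num) (by rw [hidx']; norm_num)
    (by norm_num)
  exact Dv.of_quot h7 (by norm_num) hcq.surj (ker_cq hz hcq).1 (ker_cq hz hcq).2 dv_fi22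

/-- **`Fi23`.** -/
theorem loc_Fi23 {S : Type u} [Group S] [Finite S] (h : Cfsg.Spor.IsoFi23 S) : Loc S := by
  obtain ⟨e⟩ := h
  exact loc_of (fi23_both.1.of_equiv e) (fi23_both.2.of_equiv e) (by norm_num)

end Cfsg.Agent.H657.FourFi
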